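import Cfsg.Agent.H976.Rg.Orbit

/-!
# S3691: the stabiliser of `e` (helper976)
-/

set_option autoImplicit false
set_option linter.unusedSectionVars false

namespace Cfsg.Agent.H976.Rg

open Module QuadraticMap Cfsg.Agent.LieClassical.OrthCore Cfsg.Agent.H955

section stab

variable {F : Type*} [Field F] {L : Type*} [Field L] [Algebra F L]
  {V : Type*} [AddCommGroup V] [Module F V] [Module L V] [IsScalarTower F L V] {Q : QuadraticForm F V}

/-- the fixed space -/
def fxs (T : Subgroup (V ≃ₗ[L] V)) : Submodule L V where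
  carrier := {v | ∀ x ∈ T, x v = v}
  add_mem' := by
    intro a b ha hb x hx
    rw [map_add, ha x hx, hb x hx]
  zero_mem' := fun x _ => map_zero x
  smul_mem' := by
    intro c v hv x hx
    rw [map_smul, hv x hx]

theorem eq_one_of_fxs {T : Subgroup (V ≃ₗ[L] V)} (h : fxs T = ⊤) {x : V ≃ₗ[L] V} (hx : x ∈ T) : x = 1 := by
  apply LinearEquiv.ext
  intro v
  have h1 : v ∈ fxs T := by rw [h]; trivial
  exact h1 x hx

theorem finrank_restrict (W : Submodule L V) : finrank F (W.restrictScalars F) = finrank F L * finrank L W :=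
  (Module.finrank_mul_finrank F L W).symm

theorem span_le_iff_fix {T : Subgroup (V ≃ₗ[L] V)} {W : Submodule L V} {w : V} (hW : W ≤ fxs T) (hw : ∀ x ∈ T, x w = w) :
    W ⊔ Submodule.span L {w} ≤ fxs T :=
  sup_le hW ((Submodule.span_singleton_le_iff_mem _ _).2 hw)

theorem pp_inv (hadj : ∀ (k : L) (u v : V), polar Q (k • u) v = polar Q u (k • v)) {T : Subgroup (V ≃ₗ[L] V)}
    (hTQ : ∀ x ∈ T, ∀ v, Q (x v) = Q v) {W : Submodule L V} (hW : W ≤ fxs T) :
    ∀ x ∈ T, ∀ v ∈ pp hadj W, x v ∈ pp hadj W := by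
  intro x hx v hv w hw
  have h1 : x w = w := hW hw x hx
  rw [← h1, polar_pres (hTQ x hx)]
  exact hv w hw

theorem stab_le [Finite L] [Module.Finite F V] [Finite V] (hQ : Nondeg Q) (h4 : finrank L V = 4) (h2L : finrank F L = 2)
    (hadj : ∀ (k : L) (u v : V), polar Q (k • u) v = polar Q u (k • v))
    (hch2 : (2 : F) = 0 → ∀ (k : L) (v : V), polar Q (k • v) v = 0) (hplus : ¬ IsPlus Q)
    {u e : V} (hu0 : u ≠ 0) (hu : ∀ k : L, Q (k • u) = 0) (he : polar Q u e ≠ 0) {p : ℕ} [Fact p.Prime]
    (hpL : p ∣ Nat.card L) (hp2 : (2 : F) = 0 → p = 2)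
    {T : Subgroup (V ≃ₗ[L] V)} (hT : IsPGroup p T)
    (hTQ : ∀ x ∈ T, ∀ v, Q (x v) = Q v) (hTu : ∀ x ∈ T, x u = u) (hTe : ∀ x ∈ T, x e = e) :
    Nat.card T ≤ if p = 2 then 2 else 1 := by
  -- the chain of subspaces
  have hU1 : finrank L (Submodule.span L {u}) = 1 := finrank_span_singleton hu0
  have heU : e ∉ Submodule.span L {u} := by
    intro h
    obtain ⟨c, rfl⟩ := Submodule.mem_span_singleton.1 h
    have h1 := polar_sing hu 1 c
    rw [one_smul] at h1
    exact he h1
  set M : Submodule L V := Submodule.span L {u} ⊔ Submodule.span L {e} with hM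
  have hM2 : finrank L M = 2 := by rw [hM, Submodule.finrank_sup_span_singleton heU, hU1]
  have hMT : M ≤ fxs T := span_le_iff_fix ((Submodule.span_singleton_le_iff_mem _ _).2 hTu) hTe
  have huM : ∀ a : L, a • u ∈ M := fun a => Submodule.mem_sup_left (Submodule.mem_span_singleton.2 ⟨a, rfl⟩)
  have heM : ∀ a : L, a • e ∈ M := fun a => Submodule.mem_sup_right (Submodule.mem_span_singleton.2 ⟨a, rfl⟩)
  have hMdec : ∀ m ∈ M, ∃ a b : L, m = a • u + b • e := by
    intro m hm
    obtain ⟨y, hy, z, hz, rfl⟩ := Submodule.mem_sup.1 hm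
    obtain ⟨a, rfl⟩ := Submodule.mem_span_singleton.1 hy
    obtain ⟨b, rfl⟩ := Submodule.mem_span_singleton.1 hz
    exact ⟨a, b, rfl⟩
  have hMd : ∀ m ∈ M, m ∈ pp hadj M → m = 0 := by
    intro m hm hm'
    obtain ⟨a, b, rfl⟩ := hMdec m hm
    have hb : b = 0 := by
      by_contra hb
      have h1 := hm' _ (huM b⁻¹)
      rw [polar_add_right, polar_sing hu, zero_add, hadj, smul_smul, inv_mul_cancel₀ hb, one_smul] at h1
      exact he h1
    subst hb
    rw [zero_smul, add_zero] at hm' ⊢
    by_contra ha'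
    have ha : a ≠ 0 := fun h => ha' (by rw [h, zero_smul])
    have h1 := hm' _ (heM a⁻¹)
    rw [hadj, smul_smul, inv_mul_cancel₀ ha, one_smul, polar_comm] at h1
    exact he h1
  have hppM : finrank L (pp hadj M) = 2 := by
    have := finrank_pp hQ h2L hadj M
    omega
  -- `w0`
  obtain ⟨w, hw, hw0, hTw⟩ := exists_fixed' hpL hT (pp hadj M) (by
    intro h; rw [h, finrank_bot] at hppM; omega) (pp_inv hadj hTQ hMT)
  have hwM : w ∉ M := fun h => hw0 (hMd w h hw)
  set M2 : Submodule L V := M ⊔ Submodule.span L {w} with hM2'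
  have hM23 : finrank L M2 = 3 := by rw [hM2', Submodule.finrank_sup_span_singleton hwM, hM2]
  have hM2T : M2 ≤ fxs T := span_le_iff_fix hMT hTw
  have hwM2 : ∀ a : L, a • w ∈ M2 := fun a => Submodule.mem_sup_right (Submodule.mem_span_singleton.2 ⟨a, rfl⟩)
  have hMM2 : M ≤ M2 := le_sup_left
  have hM2dec : ∀ m ∈ M2, ∃ y ∈ M, ∃ c : L, m = y + c • w := by
    intro m hm
    obtain ⟨y, hy, z, hz, rfl⟩ := Submodule.mem_sup.1 hm
    obtain ⟨c, rfl⟩ := Submodule.mem_span_singleton.1 hz
    exact ⟨y, hy, c, rfl⟩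
  have hppM2 : finrank L (pp hadj M2) = 1 := by
    have := finrank_pp hQ h2L hadj M2
    omega
  -- `L w` is not totally singular
  have hnot : ¬ ∀ k : L, Q (k • w) = 0 := by
    intro hk
    apply hplus
    have hwU : w ∉ Submodule.span L {u} := fun h => hwM (Submodule.mem_sup_left h)
    refine ⟨(Submodule.span L {u} ⊔ Submodule.span L {w}).restrictScalars F, ?_, ?_⟩
    · intro v hv
      obtain ⟨y, hy, z, hz, rfl⟩ := Submodule.mem_sup.1 hv
      obtain ⟨a, rfl⟩ := Submodule.mem_span_singleton.1 hy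
      obtain ⟨b, rfl⟩ := Submodule.mem_span_singleton.1 hz
      rw [QuadraticMap.map_add (f := ⇑Q), hu, hk, (pp hadj M).smul_mem b hw _ (huM a)]
      simp
    · have e1 := finrank_restrict (F := F) (Submodule.span L {u} ⊔ Submodule.span L {w})
      have e3 : finrank F L * finrank L V = finrank F V := Module.finrank_mul_finrank F L V
      rw [e1, ← e3, Submodule.finrank_sup_span_singleton hwU, hU1, h4]
      ring
  have htop : ∀ w1 : V, w1 ∉ M2 → M2 ⊔ Submodule.span L {w1} = ⊤ := by
    intro w1 hw1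
    apply Submodule.eq_top_of_finrank_eq
    rw [Submodule.finrank_sup_span_singleton hw1, hM23, h4]
  by_cases h2 : (2 : F) = 0
  · -- characteristic 2
    rw [if_pos (hp2 h2)]
    have hneg : ∀ a : F, a + a = 0 := fun a => by rw [← two_mul, h2, zero_mul]
    have hww : ∀ a b : L, polar Q (a • w) (b • w) = 0 := by
      intro a b
      rw [← hadj, smul_smul]
      exact hch2 h2 _ _
    have hwpp : w ∈ pp hadj M2 := by
      intro m hm
      obtain ⟨y, hy, c, rfl⟩ := hM2dec m hm
      have h1 := hww c 1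
      rw [one_smul] at h1
      rw [polar_add_left, hw y hy, h1, add_zero]
    have hppM2w : ∀ v ∈ pp hadj M2, ∃ c : L, v = c • w := by
      have h1 : Submodule.span L {w} ≤ pp hadj M2 := (Submodule.span_singleton_le_iff_mem _ _).2 hwpp
      have h3 : Submodule.span L {w} = pp hadj M2 :=
        Submodule.eq_of_le_of_finrank_eq h1 (by rw [finrank_span_singleton hw0, hppM2])
      intro v hv
      rw [← h3] at hv
      obtain ⟨c, rfl⟩ := Submodule.mem_span_singleton.1 hv
      exact ⟨c, rfl⟩
    -- `w1`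
    obtain ⟨w1, hw1, hw1w⟩ : ∃ w1 ∈ pp hadj M, w1 ∉ Submodule.span L {w} := by
      by_contra hcon
      push Not at hcon
      have h1 : pp hadj M ≤ Submodule.span L {w} := hcon
      have h3 := Submodule.finrank_mono h1
      rw [hppM, finrank_span_singleton hw0] at h3
      omega
    have hw1M2 : w1 ∉ M2 := by
      intro h
      obtain ⟨y, hy, c, hyc⟩ := hM2dec w1 h
      have h1 : y ∈ pp hadj M := by
        have h3 : y = w1 - c • w := by rw [hyc]; abel
        rw [h3]
        exact Submodule.sub_mem _ hw1 ((pp hadj M).smul_mem c hw)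
      rw [hMd y hy h1, zero_add] at hyc
      exact hw1w (Submodule.mem_span_singleton.2 ⟨c, hyc.symm⟩)
    have hw1pp : w1 ∉ pp hadj M2 := by
      intro h
      obtain ⟨c, hc⟩ := hppM2w w1 h
      exact hw1w (Submodule.mem_span_singleton.2 ⟨c, hc.symm⟩)
    -- `z`
    have hz : ∀ x ∈ T, ∃ c : L, x w1 = w1 + c • w ∧ ∀ k : L, Q (k • (c • w)) = polar Q w1 ((k * k) • (c • w)) := by
      intro x hx
      obtain ⟨c, hc⟩ := hppM2w (x w1 - w1) (by
        intro m hm
        rw [polar_sub_right]
        have h1 : polar Q m (x w1) = polar Q m w1 := by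
          conv_lhs => rw [← hM2T hm x hx, polar_pres (hTQ x hx)]
        rw [h1, sub_self])
      have hc' : x w1 = w1 + c • w := by rw [← hc]; abel
      refine ⟨c, hc', fun k => ?_⟩
      have h1 : Q (k • x w1) = Q (k • w1) := by rw [← map_smul, hTQ x hx]
      have e1 : polar Q (k • w1) (k • (c • w)) = polar Q w1 ((k * k) • (c • w)) := by rw [hadj, smul_smul k k]
      rw [hc', smul_add, QuadraticMap.map_add (f := ⇑Q), e1] at h1
      have h3 := hneg (polar Q w1 ((k * k) • (c • w)))
      linear_combination h1 - h3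
    have hdet : ∀ x ∈ T, ∀ y ∈ T, x w1 = y w1 → x = y := by
      intro x hx y hy hxy
      apply LinearEquiv.ext
      intro v
      have hv : v ∈ M2 ⊔ Submodule.span L {w1} := by rw [htop w1 hw1M2]; trivial
      obtain ⟨m, hm, z, hz', rfl⟩ := Submodule.mem_sup.1 hv
      obtain ⟨c, rfl⟩ := Submodule.mem_span_singleton.1 hz'
      rw [map_add, map_add, map_smul, map_smul, hxy, hM2T hm x hx, hM2T hm y hy]
    -- two non-trivial elements are equal
    have huniq : ∀ x ∈ T, ∀ y ∈ T, x ≠ 1 → y ≠ 1 → x = y := by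
      intro x hx y hy hx1 hy1
      obtain ⟨c, hc, hcQ⟩ := hz x hx
      obtain ⟨d, hd, hdQ⟩ := hz y hy
      have hc0 : c ≠ 0 := by
        rintro rfl
        rw [zero_smul, add_zero] at hc
        exact hx1 (hdet x hx 1 T.one_mem hc)
      have hd0 : d ≠ 0 := by
        rintro rfl
        rw [zero_smul, add_zero] at hd
        exact hy1 (hdet y hy 1 T.one_mem hd)
      -- `d = κ c`
      obtain ⟨κ, rfl⟩ : ∃ κ : L, d = κ * c := ⟨d * c⁻¹, by rw [mul_assoc, inv_mul_cancel₀ hc0, mul_one]⟩
      have hκ0 : κ ≠ 0 := by rintro rfl; exact hd0 (zero_mul _)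
      have hκ : κ * κ - κ = 0 := by
        by_contra hne
        apply hw1pp
        have h1 : ∀ k : L, polar Q w1 ((k * k) • (((κ * κ - κ) * c) • w)) = 0 := by
          intro k
          have e1 := hcQ (k * κ)
          have e2 := hdQ k
          have e3 : (k * κ) • (c • w) = k • ((κ * c) • w) := by rw [smul_smul, smul_smul]; congr 1; ring
          have e4 : (k * k) • (((κ * κ - κ) * c) • w) = (k * κ * (k * κ)) • (c • w) - (k * k) • ((κ * c) • w) := by
            rw [smul_smul, smul_smul, smul_smul, ← sub_smul]; congr 1; ring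
          rw [e4, polar_sub_right, ← e1, ← e2, e3, sub_self]
        have h3 := sq_span h1
        have h5 : ∀ k : L, polar Q w1 (k • w) = 0 := by
          intro k
          have h6 := h3 (k * ((κ * κ - κ) * c)⁻¹)
          rwa [smul_smul, mul_assoc, inv_mul_cancel₀ (mul_ne_zero hne hc0), mul_one] at h6
        intro m hm
        obtain ⟨y, hy, c', rfl⟩ := hM2dec m hm
        rw [polar_add_left, hw1 y hy, zero_add, polar_comm]
        exact h5 c'
      have hκ1 : κ = 1 := by
        have h1 : κ * (κ - 1) = 0 := by linear_combination hκ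
        exact sub_eq_zero.1 ((mul_eq_zero.1 h1).resolve_left hκ0)
      rw [hκ1, one_mul] at hd
      exact hdet x hx y hy (hc.trans hd.symm)
    by_cases hT1 : ∃ x ∈ T, x ≠ 1
    · obtain ⟨x0, hx0, hx01⟩ := hT1
      have hsub : (T : Set (V ≃ₗ[L] V)) ⊆ {1, x0} := by
        intro y hy
        by_cases hy1 : y = 1
        · exact Or.inl hy1
        · exact Or.inr (huniq y hy x0 hx0 hy1 hx01)
      have h1 := Set.ncard_le_ncard hsub (Set.toFinite _)
      have h3 := Set.ncard_insert_le (1 : V ≃ₗ[L] V) {x0}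
      rw [Set.ncard_singleton] at h3
      have h5 : Nat.card T = (T : Set (V ≃ₗ[L] V)).ncard := rfl
      omega
    · push Not at hT1
      have h1 : T = ⊥ := (Subgroup.eq_bot_iff_forall T).2 hT1
      rw [h1, Subgroup.card_bot]
      omega
  · -- odd characteristic
    have hM2d : ∀ m ∈ M2, m ∈ pp hadj M2 → m = 0 := by
      intro m hm hm'
      obtain ⟨y, hy, c, rfl⟩ := hM2dec m hm
      have hc : c = 0 := by
        by_contra hc
        apply hnot
        intro k
        have h1 : ∀ k : L, polar Q w (k • w) = 0 := by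
          intro k
          have h3 := hm' _ (hwM2 (k * c⁻¹))
          rw [polar_add_right, hadj (k * c⁻¹) w (c • w), smul_smul, mul_assoc, inv_mul_cancel₀ hc, mul_one] at h3
          have h5 : polar Q ((k * c⁻¹) • w) y = 0 := by
            rw [polar_comm]
            exact (pp hadj M).smul_mem (k * c⁻¹) hw y hy
          rw [h5, zero_add] at h3
          exact h3
        have h3 : polar Q (k • w) (k • w) = 0 := by rw [hadj, smul_smul]; exact h1 _
        rw [polar_self] at h3
        have h5 : (2 : F) * Q (k • w) = 0 := by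
          have : (2 : ℕ) • Q (k • w) = 0 := by exact_mod_cast h3
          rw [two_mul]; rw [two_smul] at this; exact this
        exact (mul_eq_zero.1 h5).resolve_left h2
      subst hc
      rw [zero_smul, add_zero] at hm' ⊢
      exact hMd y hy (fun z hz => hm' z (hMM2 hz))
    obtain ⟨w1, hw1, hw10, hTw1⟩ := exists_fixed' hpL hT (pp hadj M2) (by
      intro h; rw [h, finrank_bot] at hppM2; omega) (pp_inv hadj hTQ hM2T)
    have hw1M2 : w1 ∉ M2 := fun h => hw10 (hM2d w1 h hw1)
    have h1 : fxs T = ⊤ := by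
      rw [eq_top_iff, ← htop w1 hw1M2]
      exact span_le_iff_fix hM2T hTw1
    have h3 : T = ⊥ := (Subgroup.eq_bot_iff_forall T).2 fun x hx => eq_one_of_fxs h1 hx
    rw [h3, Subgroup.card_bot]
    split_ifs <;> omega

end stab

end Cfsg.Agent.H976.Rg
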